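import Mathlib
import Cfsg.Agent.H672.Main
import Cfsg.Agent.CharactersDeep.FeitLinear

/-!
# From the relative common-divisor graph to the prime graph
-/

set_option autoImplicit false
set_option linter.style.haveILetI false
set_option linter.unusedSectionVars false
open Cfsg

namespace Cfsg.Agent.H672

open Cfsg.Agent.Characters.Core Cfsg.Agent.Characters.Clifford
open scoped ComplexConjugate

universe u v w

variable {G : Type u} [Group G] [Finite G]

/-- a linear character is trivial on the commutator subgroup -/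
theorem one_lt_of_mem_rel_commutator {d : ℕ} (hd : d ∈ relCharDegrees (commutator G)) : 1 < d := by
  obtain ⟨⟨χ, hχ⟩, ⟨x, hx, hne⟩, rfl⟩ := hd
  dsimp only at hne ⊢
  have h0 := charDegree_pos hχ
  by_contra hcon
  obtain ⟨l, rfl⟩ := exists_hom_of_degree_one hχ (by omega)
  apply hne
  have h1 : x ∈ l.ker := Abelianization.commutator_subset_ker l hx
  rw [lf_apply, lf_apply, MonoidHom.mem_ker.1 h1, map_one]

/-- the nonlinear degrees are in the relative degree set of the commutator subgroup -/
theorem mem_rel_commutator {d : ℕ} (hd : d ∈ charDegrees G) (h1 : 1 < d) :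
    d ∈ relCharDegrees (commutator G) := by
  obtain ⟨⟨χ, hχ⟩, rfl⟩ := hd
  dsimp only at h1 ⊢
  refine ⟨⟨χ, hχ⟩, ?_, rfl⟩
  dsimp only
  by_contra hcon
  push Not at hcon
  have h2 : charDegree χ = 1 := by
    apply charDegree_of_eq
    rw [Nat.cast_one]
    refine CharactersDeep.FeitLinear.apply_one_eq_one (commutator G) ?_ hχ hcon
    intro x y
    exact Subgroup.commutator_mem_commutator (Subgroup.mem_top x) (Subgroup.mem_top y)
  omega

theorem rel_subset (N : Subgroup G) {d : ℕ} (hd : d ∈ relCharDegrees N) : d ∈ charDegrees G := by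
  obtain ⟨χ, -, h⟩ := hd
  exact ⟨χ, h⟩

theorem finite_rel (N : Subgroup G) : (relCharDegrees N).Finite := by
  haveI := finite_irr (G := G)
  refine (Set.finite_range fun χ : IrrCharacter G => charDegree (χ : G → ℂ)).subset ?_
  rintro d ⟨χ, -, h⟩
  exact ⟨χ, h⟩

theorem prime_conn {p q d : ℕ} (hp : p.Prime) (hq : q.Prime) (hd : d ∈ charDegrees G)
    (h1 : p ∣ d) (h2 : q ∣ d) (hp' : p ∈ degreePrimes G) (hq' : q ∈ degreePrimes G) :
    ((degreeGraph G).induce (degreePrimes G)).Reachable ⟨p, hp'⟩ ⟨q, hq'⟩ := by
  by_cases hpq : p = q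
  · subst hpq
    exact SimpleGraph.Reachable.refl _
  · refine SimpleGraph.Adj.reachable ?_
    rw [SimpleGraph.comap_adj]
    exact ⟨hpq, hp, hq, d, hd, ((Nat.coprime_primes hp hq).2 hpq).mul_dvd_of_dvd_of_dvd h1 h2⟩

theorem card_degreeGraph_le (N : Subgroup G) (hN : N = commutator G) :
    Nat.card ((degreeGraph G).induce (degreePrimes G)).ConnectedComponent ≤
      Nat.card (commonDivisorGraph.induce (relCharDegrees N)).ConnectedComponent := by
  subst hN
  have hmem : ∀ {d : ℕ}, d ∈ relCharDegrees (commutator G) → d.minFac ∈ degreePrimes G :=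
    fun {d} hd => ⟨Nat.minFac_prime (one_lt_of_mem_rel_commutator hd).ne',
      d, rel_subset _ hd, Nat.minFac_dvd d⟩
  have hprime : ∀ {d : ℕ}, d ∈ relCharDegrees (commutator G) → d.minFac.Prime := fun hd =>
    (hmem hd).1
  let g : relCharDegrees (commutator G) →
      ((degreeGraph G).induce (degreePrimes G)).ConnectedComponent := fun d =>
    SimpleGraph.connectedComponentMk _ ⟨d.1.minFac, hmem d.2⟩
  have hg : ∀ (d e : relCharDegrees (commutator G)),
      (commonDivisorGraph.induce (relCharDegrees (commutator G))).Adj d e → g d = g e := by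
    rintro ⟨d, hd⟩ ⟨e, he⟩ hde
    rw [SimpleGraph.comap_adj] at hde
    obtain ⟨-, hgcd⟩ := hde
    obtain ⟨r, hr, hr'⟩ := Nat.exists_prime_and_dvd (n := Nat.gcd d e) hgcd.ne'
    have hrd : r ∣ d := hr'.trans (Nat.gcd_dvd_left _ _)
    have hre : r ∣ e := hr'.trans (Nat.gcd_dvd_right _ _)
    have hrm : r ∈ degreePrimes G := ⟨hr, d, rel_subset _ hd, hrd⟩
    refine SimpleGraph.ConnectedComponent.eq.2 ?_
    exact (prime_conn (hprime hd) hr (rel_subset _ hd) (Nat.minFac_dvd d) hrd (hmem hd) hrm).trans
      (prime_conn hr (hprime he) (rel_subset _ he) hre (Nat.minFac_dvd e) hrm (hmem he))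
  have hg' : ∀ (d e : relCharDegrees (commutator G)),
      (commonDivisorGraph.induce (relCharDegrees (commutator G))).Reachable d e → g d = g e := by
    rintro d e ⟨w⟩
    induction w with
    | nil => rfl
    | cons h _ ih => exact (hg _ _ h).trans ih
  let F : (commonDivisorGraph.induce (relCharDegrees (commutator G))).ConnectedComponent →
      ((degreeGraph G).induce (degreePrimes G)).ConnectedComponent :=
    fun C => g (Quot.out C)
  have hF : Function.Surjective F := by
    intro C
    obtain ⟨⟨p, hp⟩, rfl⟩ := C.exists_rep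
    obtain ⟨hpp, d, hd, hpd⟩ := id hp
    have hd1 : 1 < d := by
      obtain ⟨⟨χ, hχ⟩, rfl⟩ := id hd
      exact lt_of_lt_of_le hpp.one_lt (Nat.le_of_dvd (charDegree_pos hχ) hpd)
    have hd' := mem_rel_commutator hd hd1
    refine ⟨SimpleGraph.connectedComponentMk _ ⟨d, hd'⟩, ?_⟩
    have h1 : g (Quot.out (SimpleGraph.connectedComponentMk
        (commonDivisorGraph.induce (relCharDegrees (commutator G))) ⟨d, hd'⟩)) = g ⟨d, hd'⟩ := by
      apply hg'
      refine SimpleGraph.ConnectedComponent.eq.1 ?_
      exact Quot.out_eq _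
    change g (Quot.out _) = _
    rw [h1]
    exact SimpleGraph.ConnectedComponent.eq.2
      (prime_conn (hprime hd') hpp hd (Nat.minFac_dvd d) hpd (hmem hd') hp)
  haveI : Finite (relCharDegrees (commutator G)) := finite_rel _
  haveI : Finite (commonDivisorGraph.induce (relCharDegrees (commutator G))).ConnectedComponent :=
    Quot.finite _
  exact Nat.card_le_card_of_surjective F hF

theorem card_degreeGraph_le_two [Group.IsSolvable G] :
    Nat.card ((degreeGraph G).induce (degreePrimes G)).ConnectedComponent ≤ 2 := by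
  by_cases h : commutator G = ⊥
  · refine (card_degreeGraph_le _ rfl).trans ?_
    have : IsEmpty (relCharDegrees (commutator G)) := by
      constructor
      rintro ⟨d, ⟨χ, ⟨x, hx, hne⟩, -⟩⟩
      rw [h, Subgroup.mem_bot] at hx
      exact hne (by rw [hx])
    haveI : IsEmpty (commonDivisorGraph.induce (relCharDegrees (commutator G))).ConnectedComponent := by
      constructor
      intro C
      obtain ⟨v, -⟩ := C.exists_rep
      exact this.false v
    rw [Nat.card_of_isEmpty]
    exact Nat.zero_le _
  · have h1 : ⁅commutator G, commutator G⁆ < commutator G :=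
      Group.IsSolvable.commutator_lt_of_ne_bot h
    exact (card_degreeGraph_le _ rfl).trans (card_components_le h1 le_rfl)

end Cfsg.Agent.H672
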